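import Cfsg.Agent.Lib.KCT.Snd
import Cfsg.Agent.Lib.KC.Defs
import Cfsg.Agent.Lib.Nine.A

/-! A search for partial character tables: the character table is found. -/

set_option autoImplicit false

open Cfsg Cfsg.Agent.Char Cfsg.Agent.Nine Cfsg.Agent.KC Finset
open scoped ComplexConjugate Classical

namespace Cfsg.Agent.KCT

universe u

variable {G : Type u} [Group G]

theorem sum_prod_pm (s : Multiset ℂ) (h : ∀ ζ ∈ s, ζ * ζ = 1) :
    ∃ m : ℕ, s.sum = s.card - 2 * m ∧ s.prod = (-1) ^ m := by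
  induction s using Multiset.induction_on with
  | empty => exact ⟨0, by simp, by simp⟩
  | cons a s ih =>
    obtain ⟨m, h1, h2⟩ := ih fun ζ hζ => h ζ (Multiset.mem_cons_of_mem hζ)
    rcases mul_self_eq_one_iff.1 (h a (Multiset.mem_cons_self a s)) with rfl | rfl
    · exact ⟨m, by simp [h1]; ring, by simp [h2]⟩
    · exact ⟨m + 1, by simp [h1]; ring, by simp [h2, pow_succ]⟩

theorem four_dvd [Finite G] [IsSimpleGroup G] (hG : ¬ IsMulCommutative G) (χ : IrrCharacter G)
    {t : G} (ht : t * t = 1) : ∃ m : ℤ, χ.1 t = dg χ - 4 * m := by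
  obtain ⟨n, ρ, -, e⟩ := χ.2
  let l : G →* ℂ := (LinearMap.det : _ →* ℂ).comp ρ
  have hl : l t = 1 := by
    by_contra hne
    have h1 := two_le_dg hG (χ := ⟨l, isIrr_monoidHom l⟩) fun e => hne (congrFun (congrArg Subtype.val e) t)
    have h2 := apply_one (⟨l, isIrr_monoidHom l⟩ : IrrCharacter G)
    simp only [map_one] at h2
    have : dg (⟨l, isIrr_monoidHom l⟩ : IrrCharacter G) = 1 := by exact_mod_cast h2.symm
    omega
  obtain ⟨m, h1, h2⟩ := sum_prod_pm (ρ t).charpoly.roots fun ζ hζ => by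
    obtain ⟨v, hv⟩ := ((Module.End.hasEigenvalue_iff_isRoot_charpoly (ρ t) ζ).2
      (Polynomial.isRoot_of_mem_roots hζ)).exists_hasEigenvector
    have h1 : ρ (t * t) v = (ζ * ζ) • v := by
      rw [map_mul, Module.End.mul_apply, hv.apply_eq_smul, map_smul, hv.apply_eq_smul, smul_smul]
    rw [ht, map_one, Module.End.one_apply] at h1
    exact smul_left_injective ℂ hv.2 (h1.symm.trans (one_smul ℂ v).symm)
  have hsp : (ρ t).charpoly.Splits := IsAlgClosed.splits _
  rw [← Module.End.trace_eq_sum_roots_charpoly_of_splits hsp, ← hsp.natDegree_eq_card_roots,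
    LinearMap.charpoly_natDegree] at h1
  rw [← Module.End.det_eq_prod_roots_charpoly_of_splits hsp] at h2
  have h3 : Even m := by
    by_contra h3
    rw [(Nat.not_even_iff_odd.1 h3).neg_one_pow, show LinearMap.det (ρ t) = l t from rfl, hl] at h2
    norm_num at h2
  obtain ⟨k, rfl⟩ := h3
  refine ⟨k, ?_⟩
  rw [← apply_one, ← e, Representation.char_one, Representation.character, h1]
  push_cast; ring

theorem three_le_dg [Finite G] [IsSimpleGroup G] (hG : ¬ IsMulCommutative G) {χ : IrrCharacter G}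
    (hχ : χ ≠ triv G) : 3 ≤ dg χ := by
  by_contra h
  have h2 : dg χ = 2 := by have := two_le_dg hG hχ; omega
  obtain ⟨t, ht⟩ := exists_prime_orderOf_dvd_card' (G := G) 2 (h2 ▸ dg_dvd χ)
  obtain ⟨m, hm⟩ := four_dvd hG χ (t := t) (by rw [← sq, ← ht, pow_orderOf_eq_one])
  have h3 := norm_ne_dg hG hχ (g := t) (by rintro rfl; simp at ht)
  have h4 := norm_char_le (ch χ) t
  rw [apply_one] at h4
  rw [hm, h2, show ((2 : ℕ) : ℂ) - 4 * m = ((2 - 4 * m : ℤ) : ℂ) by push_cast; ring,
    Complex.norm_intCast] at h3 h4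
  have h5 : |2 - 4 * m| ≤ 2 := by
    have : ((|2 - 4 * m| : ℤ) : ℝ) ≤ ((2 : ℤ) : ℝ) := by simpa using h4
    exact_mod_cast this
  refine h3 ?_
  have h6 : |2 - 4 * m| = 2 := by rcases abs_cases (2 - 4 * m) with e | e <;> omega
  exact_mod_cast h6

variable [Fintype G]

/-- the classes in a rational class -/
noncomputable def cls (x : G) : Finset (ConjClasses G) := (rc x).image ConjClasses.mk

theorem rc_out {x : G} {K : ConjClasses G} : K ∈ cls x ↔ RC x K.out := by
  constructor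
  · intro h
    obtain ⟨y, hy, rfl⟩ := mem_image.1 h
    exact (mem_rc.1 hy).trans (RC.of_isConj (ConjClasses.mk_eq_mk_iff_isConj.1 (Quotient.out_eq _).symm))
  · exact fun h => mem_image.2 ⟨_, mem_rc.2 h, Quotient.out_eq _⟩

theorem sum_rc (x : G) {φ : G → ℂ} (hφ : ∀ a b, IsConj a b → φ a = φ b) :
    (∑ y ∈ rc x, φ y) * cc x = Nat.card G * ∑ K ∈ cls x, φ K.out := by
  rw [← sum_fiberwise_of_maps_to (g := ConjClasses.mk) (t := cls x)
    (fun y hy => mem_image_of_mem _ hy), sum_mul, mul_sum]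
  refine sum_congr rfl fun K hK => ?_
  have e : (rc x).filter (fun y => ConjClasses.mk y = K) = cl K.out := by
    ext y
    rw [mem_filter, mem_cl, mem_rc, ← ConjClasses.mk_eq_mk_iff_isConj,
      show ConjClasses.mk K.out = K from Quotient.out_eq _]
    refine ⟨fun h => h.2.symm, fun h => ⟨(rc_out.1 hK).trans (RC.of_isConj ?_), h.symm⟩⟩
    rw [← ConjClasses.mk_eq_mk_iff_isConj, ← h]; exact Quotient.out_eq _
  rw [e, sum_congr rfl fun y hy => (hφ _ _ (mem_cl.1 hy)).symm, sum_const, nsmul_eq_mul,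
    ← card_cl_mul K.out, (rc_out.1 hK).cc_eq, cc]
  push_cast; ring

theorem cast_ne : (Nat.card G : ℂ) ≠ 0 := by exact_mod_cast Nat.card_pos.ne'

theorem card_cls (x : G) : (cls x).card = ns x := by
  have h1 := sum_rc x (φ := fun _ => 1) fun _ _ _ => rfl
  simp only [sum_const, nsmul_eq_mul, mul_one] at h1
  have h2 : (rc x).card * cc x = Nat.card G * (cls x).card := by exact_mod_cast h1
  rw [card_rc, mul_comm] at h2
  exact (Nat.eq_of_mul_eq_mul_left Nat.card_pos h2).symm

/-- the sum of the values on the classes of a rational class -/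
noncomputable def XX (χ : IrrCharacter G) (x : G) : ℂ := ∑ K ∈ cls x, χ.1 K.out

theorem XX_triv (x : G) : XX (triv G) x = ns x := by simp [XX, card_cls]

theorem XX_one (χ : IrrCharacter G) : XX χ 1 = dg χ := by
  have : cls (1 : G) = {ConjClasses.mk 1} := by
    ext K
    rw [rc_out, mem_singleton]
    constructor
    · intro h
      rw [← orderOf_eq_one_iff.1 (h.orderOf_eq.symm.trans orderOf_one)]
      exact (Quotient.out_eq _).symm
    · rintro rfl
      exact RC.of_isConj (ConjClasses.mk_eq_mk_iff_isConj.1 (Quotient.out_eq _).symm)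
  rw [XX, this, sum_singleton, ← apply_one]
  exact conj_eq χ (ConjClasses.mk_eq_mk_iff_isConj.1 (Quotient.out_eq _))

theorem XX_gram [Fintype (IrrCharacter G)] (x y : G) :
    ∑ χ : IrrCharacter G, XX χ x * conj (XX χ y) = if RC x y then ((ns x * cc x : ℕ) : ℂ) else 0 := by
  simp only [XX, map_sum, sum_mul_sum]
  rw [sum_comm]
  have h1 : ∀ K ∈ cls x, ∑ χ : IrrCharacter G, ∑ K' ∈ cls y, χ.1 K.out * conj (χ.1 K'.out) =
      if RC x y then (cc x : ℂ) else 0 := fun K hK => by
    rw [sum_comm]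
    simp only [second_orthogonality, ← ConjClasses.mk_eq_mk_iff_isConj,
      show ∀ K : ConjClasses G, ConjClasses.mk K.out = K from fun K => Quotient.out_eq K]
    rw [sum_ite_eq, (rc_out.1 hK).cc_eq]
    refine if_congr ?_ rfl rfl
    rw [rc_out]
    exact ⟨fun h => (rc_out.1 hK).trans h.symm, fun h => h.symm.trans (rc_out.1 hK)⟩
  rw [sum_congr rfl h1, sum_const, card_cls]
  split_ifs <;> simp

theorem sum_zpowers (φ : G → ℂ) (y : G) :
    ∑ i ∈ range (orderOf y), φ (y ^ i) = ∑ z ∈ univ.filter (· ∈ Subgroup.zpowers y), φ z := by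
  rw [← sum_image (f := φ) (g := fun i => y ^ i) fun a ha b hb e =>
    pow_injOn_Iio_orderOf (mem_range.1 ha) (mem_range.1 hb) e, image_range_orderOf]
  congr 1; ext; simp

theorem XX_pow (χ : IrrCharacter G) {x : G} (hp : (orderOf x).Prime) :
    dg χ + ee x * XX χ x = ∑ i ∈ range (orderOf x), χ.1 (x ^ i) := by
  have h1 : ∀ y ∈ rc x, ∑ i ∈ range (orderOf x), χ.1 (y ^ i) =
      ∑ i ∈ range (orderOf x), χ.1 (x ^ i) := fun y hy => by
    obtain ⟨j, hj, h⟩ := mem_rc.1 hy
    have e := sum_zpowers χ.1 (x ^ j)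
    simp only [zpowers_pow_coprime hj, hj.symm.orderOf_pow] at e
    rw [sum_congr rfl fun i _ => (conj_eq χ (h.pow i)).symm, sum_zpowers, e]
  have h2 : ∀ i ∈ Ico 1 (orderOf x), ∑ y ∈ rc x, χ.1 (y ^ i) = ∑ y ∈ rc x, χ.1 y := fun i hi => by
    have hc : i.Coprime (orderOf x) := (Nat.coprime_of_lt_prime (by
      have := (mem_Ico.1 hi).1; omega) (mem_Ico.1 hi).2 hp).symm
    obtain ⟨k, -, hk⟩ := Nat.exists_mul_mod_eq_one_of_coprime hc hp.one_lt
    have hk' : k.Coprime (orderOf x) :=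
      Nat.Coprime.coprime_mul_left (k := i) (by
        rw [Nat.Coprime, Nat.gcd_comm, Nat.gcd_rec, hk, Nat.gcd_one_left])
    have e : ∀ y ∈ rc x, y ^ (i * k) = y := fun y hy => by
      rw [← pow_mod_orderOf, ← (mem_rc.1 hy).orderOf_eq, hk, pow_one]
    have m : ∀ j : ℕ, j.Coprime (orderOf x) → ∀ y ∈ rc x, y ^ j ∈ rc x := fun j hj y hy =>
      mem_rc.2 ((mem_rc.1 hy).trans ⟨j, (mem_rc.1 hy).orderOf_eq ▸ hj, IsConj.refl _⟩)
    exact sum_nbij' (fun y => y ^ i) (fun y => y ^ k) (m i hc) (m k hk')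
      (fun y hy => by rw [← pow_mul, e y hy]) (fun y hy => by rw [← pow_mul, mul_comm, e y hy])
      fun _ _ => rfl
  have h3 := sum_congr rfl h1
  rw [sum_comm, range_eq_Ico, sum_eq_sum_Ico_succ_bot hp.pos, sum_congr rfl h2, ← range_eq_Ico]
    at h3
  simp only [pow_zero, sum_const, nsmul_eq_mul, Nat.card_Ico, apply_one] at h3
  have h4 := sum_rc x (φ := χ.1) fun _ _ => conj_eq χ
  have h5 : ((rc x).card : ℂ) * cc x = ns x * Nat.card G := by exact_mod_cast card_rc x
  have h6 : ((orderOf x - (0 + 1) : ℕ) : ℂ) = ns x * ee x := by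
    rw [zero_add, ← Nat.totient_prime hp, ← ns_mul]; push_cast; ring
  have h7 : (ns x : ℂ) ≠ 0 := by exact_mod_cast (ns_pos x).ne'
  refine mul_left_cancel₀ (mul_ne_zero h7 (cast_ne (G := G))) ?_
  rw [h6] at h3
  rw [XX]
  linear_combination (cc x : ℂ) * h3 - (dg χ - ∑ i ∈ range (orderOf x), χ.1 (x ^ i)) * h5
    - ns x * ee x * h4

theorem XX_int (χ : IrrCharacter G) {x : G} (hp : (orderOf x).Prime) : ∃ n : ℤ, XX χ x = n := by
  obtain ⟨m, hm⟩ := sum_pow_char (ch χ) (pow_orderOf_eq_one x)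
  rw [← XX_pow χ hp] at hm
  have h7 : (ee x : ℂ) ≠ 0 := by exact_mod_cast (ee_pos x).ne'
  have h1 : XX χ x = ((orderOf x * m - dg χ : ℤ) : ℂ) / ((ee x : ℤ) : ℂ) := by
    push_cast; field_simp; linear_combination hm
  obtain ⟨n, hn⟩ := dvd_of_isIntegral_div (a := orderOf x * m - dg χ) (b := ee x)
    (by exact_mod_cast (ee_pos x).ne') (h1 ▸ IsIntegral.sum _ fun K _ => isIntegral_char (ch χ) _)
  exact ⟨n, by rw [h1, hn]; push_cast; field_simp⟩

theorem mem_vals [IsSimpleGroup G] (hG : ¬ IsMulCommutative G) {χ : IrrCharacter G}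
    (hχ : χ ≠ triv G) {x : G} (hp : (orderOf x).Prime) {n : ℤ} (hn : XX χ x = n)
    (hb : n * n ≤ (ns x * cc x : ℕ)) : n ∈ vals (Nat.card G) (dg χ) (dat x) := by
  have h0 := XX_pow χ hp
  obtain ⟨m, hm⟩ := sum_pow_char (ch χ) (pow_orderOf_eq_one x)
  have he : (orderOf x - 1) / ns x = ee x := by
    rw [← Nat.totient_prime hp, ← ns_mul, Nat.mul_div_cancel_left _ (ns_pos x)]
  have h1 : (dg χ : ℤ) + ee x * n = orderOf x * m := by
    rw [← h0, hn] at hm; exact_mod_cast hm
  simp only [vals, dat, he, List.mem_filter, List.mem_map, List.mem_range, Bool.and_eq_true,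
    Bool.or_eq_true, decide_eq_true_eq]
  refine ⟨?_, ⟨⟨⟨by rw [h1]; positivity, by rw [h1]; simp⟩, ?_⟩, ?_⟩, ?_⟩
  · have h2 : n.natAbs ≤ Nat.sqrt (ns x * cc x) := Nat.le_sqrt.2 (by
      rw [← Int.natAbs_mul_self'] at hb; exact_mod_cast hb)
    exact ⟨(n + Nat.sqrt (ns x * cc x)).toNat, by omega, by omega⟩
  · have h2 : (XX χ x).re < ∑ _K ∈ cls x, (dg χ : ℝ) := by
      rw [XX, Complex.re_sum]
      refine sum_lt_sum_of_nonempty (card_pos.1 (card_cls x ▸ ns_pos x)) fun K hK => ?_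
      refine (Complex.re_le_norm _).trans_lt (lt_of_le_of_ne ?_ (norm_ne_dg hG hχ fun e => ?_))
      · simpa [apply_one] using norm_char_le (ch χ) K.out
      · have := (rc_out.1 hK).orderOf_eq
        rw [e, orderOf_one] at this
        exact hp.one_lt.ne' this
    rw [hn, sum_const, card_cls, nsmul_eq_mul, Complex.intCast_re] at h2
    exact decide_eq_true (by exact_mod_cast h2)
  · refine decide_eq_true (Int.emod_eq_zero_of_dvd (dvd_of_isIntegral_div (b := dg χ)
      (by exact_mod_cast (dg_pos χ).ne') ?_))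
    rw [Int.cast_mul, Int.cast_natCast, Int.cast_natCast, ← hn, XX, mul_sum, sum_div]
    refine IsIntegral.sum _ fun K hK => ?_
    have := isIntegral_centralChar χ.2 K.out
    rw [(rc_out.1 hK).cc_eq, ← Subgroup.index_mul_card (Cz K.out), cc,
      Nat.mul_div_cancel _ Nat.card_pos, ← apply_one]
    exact this
  · refine or_iff_not_imp_left.2 fun h2 => ?_
    replace h2 : orderOf x = 2 := by
      by_contra h3
      exact h2 (decide_eq_true h3)
    obtain ⟨k, hk⟩ := four_dvd hG χ (t := x) (by rw [← sq, ← h2, pow_orderOf_eq_one])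
    have h3 : ee x = 1 := by
      have := ns_mul x
      rw [h2] at this
      exact Nat.eq_one_of_mul_eq_one_left this
    rw [h2, h3, hn] at h0
    simp only [sum_range_succ, sum_range_zero, pow_zero, pow_one, apply_one, hk] at h0
    have : (dg χ : ℤ) + (1 : ℕ) * n = 0 + dg χ + (dg χ - 4 * k) := by exact_mod_cast h0
    omega

omit [Fintype G] in
theorem ct_sound [Finite G] [IsSimpleGroup G] (hG : ¬ IsMulCommutative G) (xs : List G)
    (hp : ∀ x ∈ xs, (orderOf x).Prime) (hpw : xs.Pairwise fun x y => ¬ RC x y) :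
    ctOK (Nat.card (ConjClasses G)) (Nat.card G) (xs.map dat) = true := by
  have := Fintype.ofFinite G
  have := Fintype.ofFinite (IrrCharacter G)
  have ex : ∀ (χ : IrrCharacter G) (x : G), ∃ n : ℤ, x ∈ 1 :: xs → XX χ x = n := fun χ x => by
    by_cases h : x ∈ xs
    · obtain ⟨n, hn⟩ := XX_int χ (hp x h)
      exact ⟨n, fun _ => hn⟩
    · exact ⟨dg χ, fun h' => by rw [(List.mem_cons.1 h').resolve_right h, XX_one]; simp⟩
  choose f hf using ex
  have c1 : cc (1 : G) = Nat.card G := by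
    rw [cc, Subgroup.centralizer_eq_top_iff_subset.2 (by simp), Subgroup.card_top]
  have n1 : ns (1 : G) = 1 := Nat.eq_one_of_mul_eq_one_right (ns_mul (1 : G) |>.trans (by simp))
  have key : ∀ x ∈ 1 :: xs, ∀ y ∈ 1 :: xs, gram ((univ.erase (triv G)).val.map f) x y =
      (if RC x y then ((ns x * cc x : ℕ) : ℤ) else 0) - (ns x * ns y : ℕ) := fun x hx y hy => by
    have h1 := XX_gram x y
    rw [← add_sum_erase _ _ (mem_univ (triv G)), XX_triv, XX_triv] at h1
    simp only [hf _ x hx, hf _ y hy, map_intCast, map_natCast] at h1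
    rw [gram, Multiset.map_map, eq_sub_iff_add_eq']
    apply Int.cast_injective (α := ℂ)
    push_cast at h1 ⊢
    rw [← h1]; simp [Finset.sum]
  have bd : ∀ χ ≠ triv G, ∀ x ∈ 1 :: xs, f χ x * f χ x ≤ (ns x * cc x : ℕ) := fun χ hχ x hx => by
    have h1 := key x hx x hx
    rw [if_pos (RC.refl x)] at h1
    obtain ⟨L', e⟩ := Multiset.exists_cons_of_mem (Multiset.mem_map_of_mem f
      (show χ ∈ (univ.erase (triv G)).val from mem_erase.2 ⟨hχ, mem_univ _⟩))
    rw [e, gram_cons] at h1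
    have := gram_nonneg L' x
    omega
  refine ctOK_of 1 xs dat ((univ.erase (triv G)).val.map f) ?_ (by rw [dat, n1, c1])
    (fun x hx => by rw [key x hx x hx, if_pos (RC.refl x)]; rfl) ?_ ?_
  · rw [Multiset.card_map, card_val, card_erase_of_mem (mem_univ _), card_univ,
      ← card_irr_eq_card_conjClasses, Nat.card_eq_fintype_card]
  · have h1 : ((1 : G) :: xs).Pairwise fun x y => ¬ RC x y := List.pairwise_cons.2 ⟨fun x hx h =>
      (hp x hx).one_lt.ne (orderOf_one.symm.trans h.orderOf_eq), hpw⟩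
    refine List.Pairwise.imp_of_mem (fun {x y} hx hy h => ?_) h1
    rw [key x hx y hy, if_neg h, zero_sub]; rfl
  · intro φ hφ
    obtain ⟨χ, hχ, rfl⟩ := Multiset.mem_map.1 hφ
    have hχ' := (mem_erase.1 hχ).1
    have h1 : f χ 1 = dg χ := by
      have := hf χ 1 List.mem_cons_self
      rw [XX_one] at this
      exact_mod_cast this.symm
    refine ⟨dg χ, h1, ?_, fun x hx => mem_vals hG hχ' (hp x hx) (hf χ x (List.mem_cons_of_mem _ hx))
      (bd χ hχ' x (List.mem_cons_of_mem _ hx))⟩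
    have h2 := bd χ hχ' 1 List.mem_cons_self
    rw [h1, n1, c1, one_mul] at h2
    simp only [degs, List.mem_reverse, List.mem_filter, List.mem_range, Bool.and_eq_true,
      decide_eq_true_eq]
    exact ⟨Nat.lt_succ_of_le (Nat.le_sqrt.2 (by exact_mod_cast h2)), three_le_dg hG hχ',
      Nat.mod_eq_zero_of_dvd (dg_dvd χ)⟩

end Cfsg.Agent.KCT
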