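import Cfsg.Agent.Lib.KCT.Chk

/-! Partial character tables that do not exist. -/

set_option autoImplicit false
set_option maxRecDepth 100000

namespace Cfsg.Agent.KCT

theorem k10_336_a : ctOK 10 336 [(7, 1, 7)] = false := by
  decide +kernel

theorem k10_720_a : ctOK 10 720 [(2, 1, 16), (3, 1, 9), (5, 1, 5)] = false := by
  decide +kernel

theorem k10_720_b : ctOK 10 720 [(2, 1, 16), (2, 1, 24), (3, 1, 18), (3, 1, 18), (5, 1, 5)] = false := by
  decide +kernel

theorem k10_1512_a : ctOK 10 1512 [(7, 1, 7)] = false := by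
  decide +kernel

theorem k10_1920_a : ctOK 10 1920 [(5, 1, 5)] = false := by
  decide +kernel

theorem k10_2520_a : ctOK 10 2520 [(5, 1, 5), (7, 2, 7)] = false := by
  decide +kernel

theorem k10_5600_a : ctOK 10 5600 [(7, 3, 7)] = false := by
  decide +kernel

theorem k10_29120_a : ctOK 10 29120 [(5, 1, 5), (7, 3, 7), (13, 3, 13)] = false := by
  decide +kernel

theorem k10_30720_a : ctOK 10 30720 [(5, 1, 5)] = false := by
  decide +kernel

theorem k10_756_a : ctOK 10 756 [(2, 1, 12), (3, 1, 54), (7, 2, 7)] = false := by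
  decide +kernel

end Cfsg.Agent.KCT
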