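import Cfsg.Agent.Lib.KCT.Chk

/-! Partial character tables that do not exist. -/

set_option autoImplicit false
set_option maxRecDepth 100000

namespace Cfsg.Agent.KCT

theorem k9_20160_a : ctOK 9 20160 [(2, 1, 64), (3, 1, 9), (5, 2, 5), (7, 2, 7)] = false := by
  decide +kernel

end Cfsg.Agent.KCT
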