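import Cfsg.Agent.Lib.KCT.Chk

/-! Partial character tables that do not exist. -/

set_option autoImplicit false
set_option maxRecDepth 100000

namespace Cfsg.Agent.KCT

theorem k9_336_a : ctOK 9 336 [(7, 1, 7)] = false := by
  decide +kernel

theorem k9_240_a : ctOK 9 240 [(3, 1, 3)] = false := by
  decide +kernel

theorem k9_960_a : ctOK 9 960 [(2, 1, 16), (2, 1, 64), (3, 1, 3), (5, 2, 5)] = false := by
  decide +kernel

theorem k9_960_b : ctOK 9 960 [(2, 1, 32), (2, 1, 32), (2, 1, 64), (3, 1, 3), (5, 2, 5)] = false := by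
  decide +kernel

theorem k9_15360_a : ctOK 9 15360 [(3, 1, 3), (5, 2, 5)] = false := by
  decide +kernel

end Cfsg.Agent.KCT
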