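import Mathlib.Data.Int.Basic
import Mathlib.Data.List.Basic

/-! A search for partial character tables: the checker. -/

set_option autoImplicit false

namespace Cfsg.Agent.KCT

/-- evaluate a natural number before passing it on -/
def fN {β : Type} (x : Nat) (k : Nat → β) : β :=
  Nat.casesOn x (k 0) fun n => k (Nat.succ n)

/-- evaluate an integer before passing it on -/
def fI {β : Type} (x : Int) (k : Int → β) : β :=
  Int.casesOn x (fun n => fN n fun n => k (Int.ofNat n)) fun n => fN n fun n => k (Int.negSucc n)

/-- evaluate a list before passing it on -/
noncomputable def fL {α β : Type} (f : α → (α → β) → β) (l : List α) : (List α → β) → β :=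
  List.rec (fun k => k []) (fun a _ ih k => f a fun a => ih fun l => k (a :: l)) l

/-- termwise operation, evaluated -/
noncomputable def zI {β : Type} (f : Int → Int → Int) (l : List Int) :
    List Int → (List Int → β) → β :=
  List.rec (fun _ k => k [])
    (fun a _ ih m k => List.casesOn m (k []) fun b m => fI (f a b) fun c => ih m fun l => k (c :: l)) l

/-- difference of triangular matrices, evaluated -/
noncomputable def sub {β : Type} (T : List (List Int)) :
    List (List Int) → (List (List Int) → β) → β :=
  List.rec (fun _ k => k [])
    (fun a _ ih m k => List.casesOn m (k []) fun b m =>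
      zI Int.sub a b fun c => ih m fun l => k (c :: l)) T

/-- one step of fraction free elimination, evaluated -/
noncomputable def elim {β : Type} (p : Int) (M : List (List Int)) :
    List Int → (List (List Int) → β) → β :=
  List.rec (fun _ k => k [])
    (fun r _ ih v k => List.casesOn v (k []) fun a v =>
      zI (fun x b => Int.sub (Int.mul p x) (Int.mul a b)) r (a :: v) fun c =>
        ih v fun l => k (c :: l)) M

/-- test for positive semidefiniteness -/
noncomputable def psd (n : Nat) : List (List Int) → Bool :=
  Nat.rec (fun _ => true) (fun _ ih M => List.casesOn M true fun r M => List.casesOn r true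
    fun p v => Int.casesOn p (fun q => Nat.casesOn q
      (Bool.rec false (ih M) (v.all fun x => Nat.beq x.natAbs 0))
      fun _ => elim p M v ih) fun _ => false) n

/-- a row: square of the degree and products -/
structure Row where
  d : Nat
  tri : List (List Int)

/-- keep the rows that fit -/
noncomputable def filt (m : Nat) (T : List (List Int)) (R : List Row) :
    (List Row → List (List (List Int)) → Bool) → Bool :=
  List.rec (fun k => k [] []) (fun r _ ih k => sub T r.tri fun U =>
    Bool.rec (ih k) (ih fun R Us => k (r :: R) (U :: Us)) (psd m U)) R

/-- one level of the search -/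
noncomputable def go (n t : Nat) (step : List Row → List (List Int) → Bool) (R : List Row) :
    List (List (List Int)) → Bool :=
  List.rec (fun _ => false) (fun r rs ih Us => List.casesOn Us false fun U Us =>
    Bool.rec false (Bool.rec (ih Us) true (step (r :: rs) U)) (Nat.ble t (Nat.mul r.d n))) R

/-- the search -/
noncomputable def search (m n : Nat) : List Row → List (List Int) → Bool :=
  Nat.rec (fun _ T => T.all fun r => r.all fun x => Nat.beq x.natAbs 0)
    (fun n ih R T => fN ((T.headD []).headD 0).natAbs fun t => filt m T R (go (Nat.succ n) t ih)) n

/-- triangular matrix of a function -/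
def tri {κ : Type*} (F : κ → κ → Int) : List κ → List (List Int)
  | [] => []
  | a :: l => (a :: l).map (F a) :: tri F l

/-- admissible values in a column -/
def vals (g d : Nat) (c : Nat × Nat × Nat) : List Int :=
  ((List.range (2 * Nat.sqrt (c.2.1 * c.2.2) + 1)).map
    fun i : Nat => (i : Int) - Nat.sqrt (c.2.1 * c.2.2)).filter fun X =>
    decide (0 ≤ (d : Int) + ((c.1 - 1) / c.2.1 : Nat) * X) &&
    decide (((d : Int) + ((c.1 - 1) / c.2.1 : Nat) * X) % c.1 = 0) &&
    decide (X < (c.2.1 * d : Nat)) && decide ((((g / c.2.2 : Nat) : Int) * X) % d = 0) &&
    (decide (c.1 ≠ 2) || decide ((X - d) % 4 = 0))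

/-- all admissible value vectors -/
def vecs (g d : Nat) : List (Nat × Nat × Nat) → List (List Int)
  | [] => [[]]
  | c :: cs => (vals g d c).flatMap fun X => (vecs g d cs).map (X :: ·)

/-- the row of a vector -/
def mkRow (d : Nat) (v : List Int) : Row := ⟨d * d, tri (· * ·) ((d : Int) :: v)⟩

/-- evaluate a row -/
noncomputable def fR {β : Type} (r : Row) (k : Row → β) : β :=
  fN r.d fun d => fL (fL fI) r.tri fun s => k ⟨d, s⟩

/-- the admissible degrees, decreasing -/
def degs (g : Nat) : List Nat :=
  ((List.range (Nat.sqrt g + 1)).filter fun d => decide (3 ≤ d) && decide (g % d = 0)).reverse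

/-- all rows -/
def rows (g : Nat) (cols : List (Nat × Nat × Nat)) : List Row :=
  (degs g).flatMap fun d => (vecs g d cols).map (mkRow d)

/-- the Gram matrix of the columns without the trivial character -/
def init : List (Nat × Nat) → List (List Int)
  | [] => []
  | a :: l => (((a.1 * a.2 : Nat) - (a.1 * a.1 : Nat) : Int) ::
      l.map fun b => -((a.1 * b.1 : Nat) : Int)) :: init l

/-- there is a candidate for a partial character table -/
noncomputable def ctOK (k g : Nat) (cols : List (Nat × Nat × Nat)) : Bool :=
  fL fR (rows g cols) fun R => fL (fL fI) (init ((1, g) :: cols.map fun c => c.2)) fun T =>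
    fN (cols.length + 1) fun m => search m (k - 1) R T

end Cfsg.Agent.KCT
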