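import Cfsg.Agent.Lib.KCT.Chk
import Mathlib.Tactic

/-! A search for partial character tables: soundness of the search. -/

set_option autoImplicit false

namespace Cfsg.Agent.KCT

theorem fN_eq {β : Type} (x : Nat) (k : Nat → β) : fN x k = k x := by cases x <;> rfl

theorem fI_eq {β : Type} (x : Int) (k : Int → β) : fI x k = k x := by
  cases x <;> simp only [fI, fN_eq]

theorem fL_eq {α β : Type} {f : α → (α → β) → β} (hf : ∀ a k, f a k = k a) (l : List α)
    (k : List α → β) : fL f l k = k l := by
  induction l generalizing k with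
  | nil => rfl
  | cons a l ih => exact (hf _ _).trans (ih _)

theorem fR_eq {β : Type} (r : Row) (k : Row → β) : fR r k = k r := by
  rw [fR, fN_eq, fL_eq (fL_eq fI_eq)]

variable {κ : Type*}

theorem zI_map {β : Type} (f : Int → Int → Int) (l : List κ) (u v : κ → Int) (k : List Int → β) :
    zI f (l.map u) (l.map v) k = k (l.map fun a => f (u a) (v a)) := by
  induction l generalizing k with
  | nil => rfl
  | cons a l ih =>
    exact (fI_eq (f (u a) (v a)) fun c => zI f (l.map u) (l.map v) fun l => k (c :: l)).trans (ih _)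

theorem sub_tri {β : Type} (F F' : κ → κ → Int) (l : List κ) (k : List (List Int) → β) :
    sub (tri F l) (tri F' l) k = k (tri (fun a b => F a b - F' a b) l) := by
  induction l generalizing k with
  | nil => rfl
  | cons a l ih =>
    exact (zI_map Int.sub (a :: l) (F a) (F' a)
      fun c => sub (tri F l) (tri F' l) fun l => k (c :: l)).trans (ih _)

theorem elim_tri {β : Type} (p : Int) (F : κ → κ → Int) (u : κ → Int) (l : List κ)
    (k : List (List Int) → β) :
    elim p (tri F l) (l.map u) k = k (tri (fun a b => p * F a b - u a * u b) l) := by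
  induction l generalizing k with
  | nil => rfl
  | cons a l ih =>
    exact (zI_map (fun x b => Int.sub (Int.mul p x) (Int.mul (u a) b)) (a :: l) (F a) u
      fun c => elim p (tri F l) (l.map u) fun l => k (c :: l)).trans (ih _)

/-- the Gram matrix of a family -/
def gram (L : Multiset (κ → ℤ)) (a b : κ) : ℤ := (L.map fun f => f a * f b).sum

theorem gram_nonneg (L : Multiset (κ → ℤ)) (a : κ) : 0 ≤ gram L a a :=
  Multiset.sum_nonneg fun x hx => by
    obtain ⟨f, -, rfl⟩ := Multiset.mem_map.1 hx
    exact mul_self_nonneg _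

theorem gram_cons (f : κ → ℤ) (L : Multiset (κ → ℤ)) (a b : κ) :
    gram (f ::ₘ L) a b = f a * f b + gram L a b := by simp [gram]

theorem gram_zero (L : Multiset (κ → ℤ)) {a : κ} (h : gram L a a = 0) (b : κ) :
    gram L a b = 0 := by
  induction L using Multiset.induction_on with
  | empty => rfl
  | cons f L ih =>
    rw [gram_cons] at h ⊢
    have h1 := gram_nonneg L a
    have h2 := mul_self_nonneg (f a)
    rw [ih (by omega), mul_self_eq_zero.1 (show f a * f a = 0 by omega)]; simp

theorem gram_map (L : Multiset (κ → ℤ)) (p : ℤ) (u : κ → ℤ) (a x y : κ) :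
    gram (L.map fun f x => p * f x - u x * f a) x y =
      p * p * gram L x y - p * u x * gram L a y - p * u y * gram L a x + u x * u y * gram L a a := by
  induction L using Multiset.induction_on with
  | empty => simp [gram]
  | cons f L ih => rw [Multiset.map_cons]; simp only [gram_cons, ih]; ring

theorem psd_tri (n : ℕ) : ∀ (F : κ → κ → ℤ) (c : ℤ) (L : Multiset (κ → ℤ)) (l : List κ), 0 < c →
    (∀ a b, c * F a b = gram L a b) → psd n (tri F l) = true := by
  induction n with
  | zero => intros; rfl
  | succ n ih =>
    intro F c L l hc h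
    cases l with
    | nil => rfl
    | cons a l =>
      have h0 : 0 ≤ F a a := le_of_mul_le_mul_left (by rw [h, mul_zero]; exact gram_nonneg L a) hc
      change Int.casesOn (motive := fun _ => Bool) (F a a) (fun q => Nat.casesOn q
        (Bool.rec false (psd n (tri F l)) ((l.map (F a)).all fun x => Nat.beq x.natAbs 0))
        fun _ => elim (F a a) (tri F l) (l.map (F a)) (psd n)) (fun _ => false) = true
      rw [elim_tri]
      obtain ⟨q, hq⟩ := Int.eq_ofNat_of_zero_le h0
      cases q with
      | zero =>
        have h1 : ((l.map (F a)).all fun x => Nat.beq x.natAbs 0) = true := by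
          simp only [List.all_map, List.all_eq_true, Function.comp]
          intro b _
          have := gram_zero L (a := a) (by rw [← h, hq]; simp) b
          rw [← h, mul_eq_zero] at this
          simp [this.resolve_left hc.ne']
        rw [h1, ih F c L l hc h, hq]; rfl
      | succ q =>
        have hp : 0 < F a a := by rw [hq]; positivity
        rw [ih (fun x y => F a a * F x y - F a x * F a y) (c * c * c * F a a)
          (L.map fun f x => c * F a a * f x - c * F a x * f a) l
          (by positivity) fun x y => by rw [gram_map]; simp only [← h]; ring, hq]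
        rfl

/-- the row of a vector of values -/
def rowOf (a : κ) (l : List κ) (f : κ → ℤ) : Row :=
  ⟨(f a).natAbs * (f a).natAbs, tri (fun x y => f x * f y) (a :: l)⟩

theorem filt_eq (m : ℕ) (T : List (List Int)) (R : List Row)
    (k : List Row → List (List (List Int)) → Bool) (hs : ∀ (U : List (List Int)) {β : Type}
      (k : List (List Int) → β), sub T U k = k (sub T U id)) :
    filt m T R k = k (R.filter fun r => psd m (sub T r.tri id))
      ((R.filter fun r => psd m (sub T r.tri id)).map fun r => sub T r.tri id) := by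
  induction R generalizing k with
  | nil => rfl
  | cons r R ih =>
    change sub T r.tri (fun U => Bool.rec (motive := fun _ => Bool) (filt m T R k)
      (filt m T R fun R Us => k (r :: R) (U :: Us)) (psd m U)) = _
    rw [hs, List.filter_cons]
    cases psd m (sub T r.tri id) <;> simp [ih]

theorem zI_id {β : Type} (f : Int → Int → Int) (l m : List Int) (k : List Int → β) :
    zI f l m k = k (List.zipWith f l m) := by
  induction l generalizing k m with
  | nil => rfl
  | cons a l ih =>
    cases m with
    | nil => rfl
    | cons b m => exact (fI_eq (f a b) fun c => zI f l m fun l => k (c :: l)).trans (ih _ _)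

theorem sub_id' (T U : List (List Int)) {β : Type} (k : List (List Int) → β) :
    sub T U k = k (List.zipWith (List.zipWith Int.sub) T U) := by
  induction T generalizing k U with
  | nil => rfl
  | cons a l ih =>
    cases U with
    | nil => rfl
    | cons b m => exact (zI_id _ _ _ _).trans (ih _ _)

theorem sub_id (T U : List (List Int)) {β : Type} (k : List (List Int) → β) :
    sub T U k = k (sub T U id) := by rw [sub_id', sub_id']; rfl

theorem search_sound (a : κ) (l : List κ) (m n : ℕ) : ∀ (L : Multiset (κ → ℤ)) (R : List Row),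
    L.card = n → R.Pairwise (fun r s => s.d ≤ r.d) → (∀ f ∈ L, rowOf a l f ∈ R) →
    search m n R (tri (gram L) (a :: l)) = true := by
  induction n with
  | zero =>
    intro L R h _ _
    obtain rfl := Multiset.card_eq_zero.1 h
    change ((tri _ (a :: l)).all fun r => r.all fun x => Nat.beq x.natAbs 0) = true
    generalize a :: l = l'
    induction l' with
    | nil => rfl
    | cons b l ih => rw [tri, List.all_cons, ih]; simp [gram]
  | succ n ih =>
    intro L R hL hR hm
    change fN (gram L a a).natAbs (fun t => filt m _ R (go (n + 1) t (search m n))) = true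
    have key : ∀ f L', L = f ::ₘ L' →
        sub (tri (gram L) (a :: l)) (rowOf a l f).tri id = tri (gram L') (a :: l) := by
      rintro f L' rfl
      rw [rowOf, sub_tri]
      simp only [gram_cons, add_sub_cancel_left, id]
    rw [fN_eq, filt_eq _ _ _ _ (sub_id _)]
    have h1 : ∀ f ∈ L, rowOf a l f ∈
        R.filter fun r => psd m (sub (tri (gram L) (a :: l)) r.tri id) := fun f hf => by
      obtain ⟨L', e⟩ := Multiset.exists_cons_of_mem hf
      refine List.mem_filter.2 ⟨hm f hf, ?_⟩
      rw [key f L' e]
      exact psd_tri m _ 1 L' _ one_pos fun _ _ => one_mul _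
    have h2 := hR.filter fun r => psd m (sub (tri (gram L) (a :: l)) r.tri id)
    generalize (R.filter fun r => psd m (sub (tri (gram L) (a :: l)) r.tri id)) = R' at h1 h2
    induction R' with
    | nil =>
      obtain ⟨f, hf⟩ := Multiset.card_pos_iff_exists_mem.1 (show 0 < L.card by omega)
      exact absurd (h1 f hf) List.not_mem_nil
    | cons r rs ih2 =>
      change Bool.rec false (Bool.rec (go (n + 1) _ (search m n) rs (rs.map _)) true
        (search m n (r :: rs) (sub _ r.tri id))) (Nat.ble _ (r.d * (n + 1))) = true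
      have h3 : Nat.ble (gram L a a).natAbs (r.d * (n + 1)) = true := by
        rw [Nat.ble_eq, ← hL]
        have h4 : gram L a a ≤ L.card • (r.d : ℤ) := by
          rw [← Multiset.card_map (fun f : κ → ℤ => f a * f a) L]
          refine Multiset.sum_le_card_nsmul _ _ fun x hx => ?_
          obtain ⟨f, hf, rfl⟩ := Multiset.mem_map.1 hx
          have h5 : (rowOf a l f).d ≤ r.d := by
            rcases List.mem_cons.1 (h1 f hf) with e | e
            exacts [e ▸ le_rfl, (List.pairwise_cons.1 h2).1 _ e]
          rw [← Int.natAbs_mul_self']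
          exact_mod_cast h5
        have h6 := gram_nonneg L a
        rw [nsmul_eq_mul, mul_comm] at h4
        zify
        rwa [abs_of_nonneg h6]
      rw [h3]
      by_cases h4 : ∃ f ∈ L, rowOf a l f = r
      · obtain ⟨f, hf, rfl⟩ := h4
        obtain ⟨L', e⟩ := Multiset.exists_cons_of_mem hf
        rw [key f L' e, ih L' _ (by rw [e] at hL; simpa using hL) h2 fun f' hf' =>
          h1 f' (e ▸ Multiset.mem_cons_of_mem hf')]
      · rw [ih2 (fun f hf => (List.mem_cons.1 (h1 f hf)).resolve_left fun e => h4 ⟨f, hf, e⟩)
          (List.pairwise_cons.1 h2).2]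
        cases search m n (r :: rs) (sub _ r.tri id) <;> rfl

theorem rows_sorted (g : ℕ) (cols : List (ℕ × ℕ × ℕ)) :
    (rows g cols).Pairwise fun r s => s.d ≤ r.d := by
  rw [rows, List.pairwise_flatMap]
  refine ⟨fun d _ => ?_, ?_⟩
  · rw [List.pairwise_map]
    exact List.pairwise_of_forall fun _ _ => le_rfl
  · rw [degs, List.pairwise_reverse]
    refine (List.pairwise_lt_range.filter _).imp fun {d e} h x hx y hy => ?_
    obtain ⟨_, -, rfl⟩ := List.mem_map.1 hx
    obtain ⟨_, -, rfl⟩ := List.mem_map.1 hy
    exact Nat.mul_le_mul h.le h.le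

theorem tri_map {κ' : Type*} (F : κ' → κ' → ℤ) (u : κ → κ') (l : List κ) :
    tri F (l.map u) = tri (fun a b => F (u a) (u b)) l := by
  induction l with
  | nil => rfl
  | cons a l ih => rw [List.map_cons, tri, tri, ih, ← List.map_cons, List.map_map]; rfl

theorem map_mem_vecs {g d : ℕ} (u : κ → ℕ × ℕ × ℕ) (f : κ → ℤ) (l : List κ)
    (h : ∀ x ∈ l, f x ∈ vals g d (u x)) : l.map f ∈ vecs g d (l.map u) := by
  induction l with
  | nil => simp [vecs]
  | cons a l ih =>
    rw [List.map_cons, List.map_cons, vecs, List.mem_flatMap]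
    exact ⟨_, h a List.mem_cons_self, List.mem_map_of_mem
      (ih fun x hx => h x (List.mem_cons_of_mem _ hx))⟩

theorem init_eq (F : κ → κ → ℤ) (u : κ → ℕ × ℕ) (l : List κ)
    (h1 : ∀ a ∈ l, F a a = ((u a).1 * (u a).2 : ℕ) - ((u a).1 * (u a).1 : ℕ))
    (h2 : l.Pairwise fun a b => F a b = -(((u a).1 * (u b).1 : ℕ) : ℤ)) :
    init (l.map u) = tri F l := by
  induction l with
  | nil => rfl
  | cons a l ih =>
    rw [List.pairwise_cons] at h2
    rw [List.map_cons, init, tri, ih (fun x hx => h1 x (List.mem_cons_of_mem _ hx)) h2.2,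
      List.map_cons, h1 a List.mem_cons_self, List.map_map]
    congr 2
    exact List.map_congr_left fun b hb => (h2.1 b hb).symm

theorem ctOK_of (a : κ) (l : List κ) (u : κ → ℕ × ℕ × ℕ) (L : Multiset (κ → ℤ)) {k g : ℕ}
    (hk : L.card = k - 1) (ha : (u a).2 = (1, g))
    (h1 : ∀ x ∈ a :: l, gram L x x = ((u x).2.1 * (u x).2.2 : ℕ) - ((u x).2.1 * (u x).2.1 : ℕ))
    (h2 : (a :: l).Pairwise fun x y => gram L x y = -(((u x).2.1 * (u y).2.1 : ℕ) : ℤ))
    (h3 : ∀ f ∈ L, ∃ d : ℕ, f a = d ∧ d ∈ degs g ∧ ∀ x ∈ l, f x ∈ vals g d (u x)) :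
    ctOK k g (l.map u) = true := by
  rw [ctOK, fL_eq fR_eq, fL_eq (fL_eq fI_eq), fN_eq, List.map_map, ← ha,
    show (u a).2 :: l.map ((fun c => c.2) ∘ u) = (a :: l).map fun x => (u x).2 from rfl,
    init_eq (gram L) _ _ h1 h2]
  refine search_sound a l _ _ L _ hk (rows_sorted _ _) fun f hf => ?_
  obtain ⟨d, e, hd, h⟩ := h3 f hf
  refine List.mem_flatMap.2 ⟨d, hd, List.mem_map.2 ⟨_, map_mem_vecs u f l h, ?_⟩⟩
  rw [mkRow, rowOf, ← e, ← List.map_cons, tri_map, e, Int.natAbs_natCast]

end Cfsg.Agent.KCT
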